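import Mathlib
import Cfsg.Agent.Lib.Helper17.Small
import Cfsg.Agent.Lib.Helper17.Involution
import Cfsg.Agent.Lib.Helper52.PG7920B

/-!
General tools for the local analysis of a simple group of order `2520` (statement S0984):
Sylow theory inside a subgroup, Burnside's transfer theorem inside a subgroup, fixed points of
elements on the set of Sylow subgroups.
-/

set_option autoImplicit false

namespace Cfsg.Agent.Lib.Helper52.A7

open Subgroup

variable {G : Type*} [Group G]

theorem mem_smul_sylow {p : ℕ} (g x : G) (Q : Sylow p G) :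
    x ∈ ((g • Q : Sylow p G) : Subgroup G) ↔ g⁻¹ * x * g ∈ (Q : Subgroup G) := by
  rw [Sylow.coe_subgroup_smul, Subgroup.mem_pointwise_smul_iff_inv_smul_mem]
  simp only [MulAut.smul_def, MulAut.conj_inv_apply]

theorem conj_mem_smul_sylow {p : ℕ} (g t : G) (Q : Sylow p G) :
    g * t * g⁻¹ ∈ ((g • Q : Sylow p G) : Subgroup G) ↔ t ∈ (Q : Subgroup G) := by
  rw [mem_smul_sylow]
  have : g⁻¹ * (g * t * g⁻¹) * g = t := by group
  rw [this]

theorem comm_of_mem_centralizer_singleton {a k : G} (h : a ∈ centralizer ({k} : Set G)) :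
    a * k = k * a :=
  (Cfsg.Agent.Lib.Helper52.PG7920.mem_centralizer_singleton_comm.mp h).eq

theorem mem_centralizer_singleton_of_comm {a k : G} (h : a * k = k * a) :
    a ∈ centralizer ({k} : Set G) :=
  Cfsg.Agent.Lib.Helper52.PG7920.mem_centralizer_singleton_comm.mpr h

/-- Cauchy's theorem inside a subgroup. -/
theorem exists_orderOf_mem [Finite G] (H : Subgroup G) (p : ℕ) [Fact p.Prime]
    (h : p ∣ Nat.card H) : ∃ x ∈ H, orderOf x = p := by
  obtain ⟨x, hx⟩ := exists_prime_orderOf_dvd_card' (G := H) p h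
  exact ⟨x, x.2, by rw [← hx, Subgroup.orderOf_coe]⟩

/-- A subgroup of the right order inside `H` is a Sylow subgroup of `H`. -/
theorem sylow_sub_exists [Finite G] {p : ℕ} [Fact p.Prime] (H P : Subgroup G) (hPH : P ≤ H)
    (a m : ℕ) (hP : Nat.card P = p ^ a) (hH : Nat.card H = p ^ a * m) (hm : ¬ p ∣ m) :
    ∃ P' : Sylow p H, (P' : Subgroup H) = P.subgroupOf H := by
  have hcard : Nat.card (P.subgroupOf H) = p ^ a := by
    rw [← hP]; exact Nat.card_congr (subgroupOfEquivOfLe hPH).toEquiv
  have hpg : IsPGroup p (P.subgroupOf H) := IsPGroup.of_card hcard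
  obtain ⟨P', hP'⟩ := hpg.exists_le_sylow
  refine ⟨P', ?_⟩
  have h1 : Nat.card (P' : Subgroup H) = p ^ a :=
    Cfsg.Agent.Lib.Helper17.card_sylow_eq_of_card_eq (G := H) p a m hH hm P'
  exact (Subgroup.eq_of_le_of_card_ge hP' (by rw [h1, hcard])).symm

/-- Sylow counting inside a subgroup. -/
theorem sylow_sub_count [Finite G] {p : ℕ} [Fact p.Prime] (H P : Subgroup G) (hPH : P ≤ H)
    (a m : ℕ) (hP : Nat.card P = p ^ a) (hH : Nat.card H = p ^ a * m) (hm : ¬ p ∣ m) :
    ∃ n, n % p = 1 ∧
      n * Nat.card (H ⊓ normalizer (P : Set G) : Subgroup G) = Nat.card H := by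
  obtain ⟨P', hP'⟩ := sylow_sub_exists H P hPH a m hP hH hm
  refine ⟨Nat.card (Sylow p H), Cfsg.Agent.Lib.Helper17.card_sylow_mod (G := H) p, ?_⟩
  have h1 := Cfsg.Agent.Lib.Helper17.card_sylow_mul_card_normalizer (G := H) p P'
  have h2 : normalizer ((P' : Subgroup H) : Set H) =
      (H ⊓ normalizer (P : Set G)).subgroupOf H := by
    rw [hP', ← subgroupOf_normalizer_eq hPH, inf_subgroupOf_left]
  rw [h2] at h1
  have h3 : Nat.card ((H ⊓ normalizer (P : Set G)).subgroupOf H) =
      Nat.card (H ⊓ normalizer (P : Set G) : Subgroup G) :=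
    Nat.card_congr (subgroupOfEquivOfLe inf_le_left).toEquiv
  rw [h3] at h1
  exact h1

/-- Sylow conjugacy inside a subgroup: every `p`-subgroup of `H` is `H`-conjugate into `P`. -/
theorem sylow_sub_conj [Finite G] {p : ℕ} [Fact p.Prime] (H P : Subgroup G) (hPH : P ≤ H)
    (a m : ℕ) (hP : Nat.card P = p ^ a) (hH : Nat.card H = p ^ a * m) (hm : ¬ p ∣ m)
    (Q : Subgroup G) (hQH : Q ≤ H) (hQ : IsPGroup p Q) :
    ∃ h ∈ H, ∀ x ∈ Q, h * x * h⁻¹ ∈ P := by
  obtain ⟨P', hP'⟩ := sylow_sub_exists H P hPH a m hP hH hm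
  have hpg : IsPGroup p (Q.subgroupOf H) :=
    hQ.comap_of_injective H.subtype H.subtype_injective
  obtain ⟨Q', hQ'⟩ := hpg.exists_le_sylow
  obtain ⟨g, hg⟩ := MulAction.exists_smul_eq H Q' P'
  refine ⟨g, g.2, ?_⟩
  intro x hx
  have hxH : x ∈ H := hQH hx
  have h1 : (⟨x, hxH⟩ : H) ∈ (Q' : Subgroup H) := hQ' (mem_subgroupOf.mpr hx)
  have h2 : g * ⟨x, hxH⟩ * g⁻¹ ∈ ((g • Q' : Sylow p H) : Subgroup H) :=
    (conj_mem_smul_sylow g _ Q').mpr h1
  rw [hg, hP', mem_subgroupOf] at h2
  exact h2

/-- Burnside's transfer theorem inside a subgroup `H`: if a Sylow `p`-subgroup `P` of `H`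
satisfies `N_H(P) ≤ C(P)`, then `H` has a normal `p`-complement. -/
theorem burnside_sub [Finite G] {p : ℕ} [Fact p.Prime] (H P : Subgroup G) (hPH : P ≤ H)
    (a m : ℕ) (hP : Nat.card P = p ^ a) (hH : Nat.card H = p ^ a * m) (hm : ¬ p ∣ m)
    (hNC : H ⊓ normalizer (P : Set G) ≤ centralizer (P : Set G)) :
    ∃ K : Subgroup G, K ≤ H ∧ H ≤ normalizer (K : Set G) ∧ Nat.card K = m ∧
      ∀ x ∈ H, (orderOf x).Coprime p → x ∈ K := by
  classical
  have hp : p.Prime := Fact.out
  obtain ⟨P', hP'⟩ := sylow_sub_exists H P hPH a m hP hH hm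
  have hmem : ∀ h : H, h ∈ (P' : Subgroup H) ↔ (h : G) ∈ P := by
    intro h
    rw [hP', mem_subgroupOf]
  have hN' : normalizer ((P' : Subgroup H) : Set H) ≤ centralizer ((P' : Subgroup H) : Set H) := by
    intro n hn
    have hn2 : n ∈ (H ⊓ normalizer (P : Set G)).subgroupOf H := by
      rw [hP', ← subgroupOf_normalizer_eq hPH] at hn
      rw [inf_subgroupOf_left]
      exact hn
    have hc := hNC (mem_subgroupOf.mp hn2)
    rw [mem_centralizer_iff] at hc ⊢
    intro h hh
    apply Subtype.ext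
    exact hc (h : G) ((hmem h).mp hh)
  have hc := MonoidHom.ker_transferSylow_isComplement' P' hN'
  set K0 : Subgroup H := (MonoidHom.transferSylow P' hN').ker with hK0
  have hK0n : K0.Normal := by rw [hK0]; infer_instance
  have hP'card : Nat.card (P' : Subgroup H) = p ^ a := by
    rw [hP', ← hP]; exact Nat.card_congr (subgroupOfEquivOfLe hPH).toEquiv
  have hcard : Nat.card K0 * Nat.card (P' : Subgroup H) = Nat.card H := hc.card_mul_card
  have hK0card : Nat.card K0 = m := by
    rw [hP'card, hH, mul_comm] at hcard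
    exact Nat.eq_of_mul_eq_mul_left (pow_pos hp.pos a) hcard
  have hidx : K0.index = p ^ a := by
    rw [← hP'card]
    exact hc.symm.index_eq_card
  refine ⟨K0.map H.subtype, map_subtype_le _, ?_, ?_, ?_⟩
  · intro h hh
    rw [mem_normalizer_iff]
    intro x
    have key : ∀ (g : H) (x : G), x ∈ K0.map H.subtype →
        (g : G) * x * (g : G)⁻¹ ∈ K0.map H.subtype := by
      intro g x hx
      obtain ⟨y, hy, hyx⟩ := Subgroup.mem_map.mp hx
      refine Subgroup.mem_map.mpr ⟨g * y * g⁻¹, hK0n.conj_mem y hy g, ?_⟩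
      rw [← hyx]
      simp only [Subgroup.coe_subtype, Subgroup.coe_mul, Subgroup.coe_inv]
    constructor
    · intro hx
      exact key ⟨h, hh⟩ x hx
    · intro hx
      have h1 := key (⟨h, hh⟩⁻¹) _ hx
      simp only [Subgroup.coe_inv, inv_inv] at h1
      have e : h⁻¹ * (h * x * h⁻¹) * h = x := by group
      rwa [e] at h1
  · rw [card_map_of_injective H.subtype_injective]
    exact hK0card
  · intro x hx hcop
    have h1 : (⟨x, hx⟩ : H) ^ K0.index ∈ K0 := Subgroup.pow_index_mem K0 _
    rw [hidx] at h1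
    have hcop2 : (orderOf x).Coprime (p ^ a) := Nat.Coprime.pow_right a hcop
    have h2 : (⟨x, hx⟩ : H) ∈ K0 := by
      have ho : orderOf (⟨x, hx⟩ : H) = orderOf x := by
        rw [← Subgroup.orderOf_coe]
      have hcop3 : (p ^ a).Coprime (orderOf (⟨x, hx⟩ : H)) := by rw [ho]; exact hcop2.symm
      obtain ⟨k, hk⟩ := exists_pow_eq_self_of_coprime hcop3
      rw [← hk]
      exact K0.pow_mem h1 k
    exact ⟨⟨x, hx⟩, h2, rfl⟩

/-- If `x` centralizes the Sylow `p`-subgroup `P`, then the number of Sylow `p`-subgroups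
normalized by `x` is `≡ 1 mod p`. -/
theorem fix_sylow_mod [Finite G] {p : ℕ} [Fact p.Prime] (P : Sylow p G) (x : G)
    (hx : x ∈ centralizer ((P : Subgroup G) : Set G)) :
    Set.ncard {Q : Sylow p G | x • Q = Q} % p = 1 := by
  classical
  have hp : p.Prime := Fact.out
  let F : SubMulAction (P : Subgroup G) (Sylow p G) :=
    { carrier := {Q : Sylow p G | x • Q = Q}
      smul_mem' := by
        intro c Q hQ
        show x • (c • Q) = c • Q
        have hc : (c : G) * x = x * (c : G) := (mem_centralizer_iff.mp hx) c c.2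
        have e1 : c • Q = (c : G) • Q := rfl
        rw [e1, ← mul_smul, ← hc, mul_smul, hQ] }
  have h1 := P.isPGroup'.card_modEq_card_fixedPoints F
  have hPF : P ∈ F := by
    show x • P = P
    rw [Sylow.smul_eq_iff_mem_normalizer]
    exact Subgroup.centralizer_le_normalizer _ hx
  have h2 : Nat.card (MulAction.fixedPoints (P : Subgroup G) F) = 1 := by
    rw [Nat.card_eq_one_iff_unique]
    constructor
    · constructor
      rintro ⟨⟨Q1, hQ1F⟩, hQ1⟩ ⟨⟨Q2, hQ2F⟩, hQ2⟩
      have key : ∀ (Q : Sylow p G) (hQF : Q ∈ F),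
          (⟨Q, hQF⟩ : F) ∈ MulAction.fixedPoints (P : Subgroup G) F → Q = P := by
        intro Q hQF hQ
        have h3 : Q ∈ MulAction.fixedPoints (P : Subgroup G) (Sylow p G) := by
          intro c
          have := hQ c
          exact congrArg Subtype.val this
        have h4 : (P : Subgroup G) ≤ Q := (P.isPGroup'.sylow_mem_fixedPoints_iff).mp h3
        exact Sylow.ext (P.is_maximal' Q.isPGroup' h4)
      have e1 := key Q1 hQ1F hQ1
      have e2 := key Q2 hQ2F hQ2
      subst e1
      subst e2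
      rfl
    · refine ⟨⟨⟨P, hPF⟩, ?_⟩⟩
      intro c
      apply Subtype.ext
      show c • P = P
      have e1 : c • P = (c : G) • P := rfl
      rw [e1, Sylow.smul_eq_iff_mem_normalizer]
      exact le_normalizer c.2
  rw [h2] at h1
  have h3 : Nat.card F = Set.ncard {Q : Sylow p G | x • Q = Q} :=
    Nat.card_coe_set_eq {Q : Sylow p G | x • Q = Q}
  rw [h3] at h1
  have h4 := h1
  unfold Nat.ModEq at h4
  rw [h4, Nat.mod_eq_of_lt hp.one_lt]

/-- In a simple group with more than one Sylow `p`-subgroup, an element normalizing all of them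
is trivial. -/
theorem eq_one_of_fix_all [Finite G] [IsSimpleGroup G] {p : ℕ} [Fact p.Prime]
    (hn : Nat.card (Sylow p G) ≠ 1) (x : G) (hx : ∀ Q : Sylow p G, x • Q = Q) : x = 1 := by
  classical
  let φ : G →* Equiv.Perm (Sylow p G) := MulAction.toPermHom G (Sylow p G)
  have hxk : x ∈ φ.ker := by
    rw [MonoidHom.mem_ker]
    exact Equiv.ext (fun Q => hx Q)
  rcases (MonoidHom.normal_ker φ).eq_bot_or_eq_top with h | h
  · rw [h] at hxk
    exact Subgroup.mem_bot.mp hxk
  · exfalso
    obtain ⟨P⟩ : Nonempty (Sylow p G) := inferInstance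
    apply Cfsg.Agent.Lib.Helper17.normalizer_sylow_ne_top p P hn
    rw [eq_top_iff]
    intro g _
    have hg : g ∈ φ.ker := h ▸ Subgroup.mem_top g
    rw [MonoidHom.mem_ker] at hg
    have h2 : g • P = P := by
      have := congrArg (fun σ : Equiv.Perm (Sylow p G) => σ P) hg
      exact this
    exact Sylow.smul_eq_iff_mem_normalizer.mp h2

/-- Proper subgroups of a simple group of order `2520` without subgroups of index `7` have index
at least `8`. -/
theorem index_ge_eight [Finite G] [IsSimpleGroup G] (hG : Nat.card G = 2520)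
    (hno : ∀ H : Subgroup G, H.index ≠ 7) (H : Subgroup G) (hH : H ≠ ⊤) : 8 ≤ H.index := by
  have h := Cfsg.Agent.Lib.Helper17.card_dvd_factorial_index H hH
  rw [hG] at h
  have key : ∀ k < 7, ¬ 2520 ∣ k.factorial := by decide
  have h7 := hno H
  by_contra hlt
  exact key H.index (by omega) h

theorem card_le_of_ne_top [Finite G] [IsSimpleGroup G] (hG : Nat.card G = 2520)
    (hno : ∀ H : Subgroup G, H.index ≠ 7) (H : Subgroup G) (hH : H ≠ ⊤) :
    Nat.card H ≤ 315 := by
  have h8 := index_ge_eight hG hno H hH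
  have h1 := H.card_mul_index
  rw [hG] at h1
  by_contra hlt
  have h2 : 316 * 8 ≤ Nat.card H * H.index := Nat.mul_le_mul (by omega) h8
  omega

theorem card_dvd_2520 [Finite G] (hG : Nat.card G = 2520) (H : Subgroup G) :
    Nat.card H ∣ 2520 := by
  rw [← hG]; exact Subgroup.card_subgroup_dvd_card H

/-- An element `x` with `x ^ p = 1` normalizing `T` centralizes `T`, when no proper divisor `d`
of `|T|` has `p ∣ |T| - d`. -/
theorem le_centralizer_of_normalizes [Finite G] (p : ℕ) [Fact p.Prime] (T : Subgroup G) (x : G)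
    (hx : x ∈ normalizer (T : Set G)) (hxp : x ^ p = 1)
    (hT : ∀ d, d ∣ Nat.card T → p ∣ Nat.card T - d → d = Nat.card T) :
    T ≤ centralizer ({x} : Set G) := by
  have h := Cfsg.Agent.Lib.Helper52.PG7920.dvd_card_sub_card_inf_centralizer p T x hx hxp
  have hd : Nat.card (T ⊓ centralizer ({x} : Set G) : Subgroup G) ∣ Nat.card T :=
    Subgroup.card_dvd_of_le inf_le_left
  have he := hT _ hd h
  have h2 : T ⊓ centralizer ({x} : Set G) = T :=
    Subgroup.eq_of_le_of_card_ge inf_le_left (by rw [he])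
  rw [← h2]
  exact inf_le_right

/-- The conjugacy class of `z` as a `G`-set. -/
structure ConjCls (z : G) where
  val : G
  prop : IsConj z val

theorem ConjCls.ext' {z : G} {x y : ConjCls z} (h : x.val = y.val) : x = y := by
  cases x; cases y; cases h; rfl

instance conjClsMulAction (z : G) : MulAction G (ConjCls z) where
  smul g h := ⟨g * h.val * g⁻¹, h.prop.trans (isConj_iff.mpr ⟨g, rfl⟩)⟩
  one_smul h := ConjCls.ext' (by show 1 * h.val * 1⁻¹ = h.val; group)
  mul_smul a b h := ConjCls.ext' (by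
    show (a * b) * h.val * (a * b)⁻¹ = a * (b * h.val * b⁻¹) * a⁻¹; group)

theorem ConjCls.smul_val {z : G} (g : G) (x : ConjCls z) : (g • x).val = g * x.val * g⁻¹ := rfl

/-- The class as a subtype. -/
def conjClsEquiv (z : G) : ConjCls z ≃ {h : G // IsConj z h} where
  toFun x := ⟨x.val, x.prop⟩
  invFun x := ⟨x.1, x.2⟩
  left_inv x := by cases x; rfl
  right_inv x := by cases x; rfl

instance conjClsFinite [Finite G] (z : G) : Finite (ConjCls z) :=
  Finite.of_equiv _ (conjClsEquiv z).symm

/-- For an involution `z` of a simple group of non-prime order, the number of conjugates of `z`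
commuting with `z` is congruent to the size of the class modulo `4`. -/
theorem conj_fixed_mod_four [Finite G] [IsSimpleGroup G] (hG : ¬ (Nat.card G).Prime) (z : G)
    (hz : z * z = 1) :
    ∃ c, Set.ncard {h : G | IsConj z h ∧ z * h = h * z} + 4 * c =
      Nat.card {h : G // IsConj z h} := by
  obtain ⟨c, hc⟩ := Cfsg.Agent.Lib.Helper17.involution_fixed_mod_four hG (X := ConjCls z) z hz
  refine ⟨c, ?_⟩
  have e1 : Nat.card (ConjCls z) = Nat.card {h : G // IsConj z h} :=
    Nat.card_congr (conjClsEquiv z)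
  rw [← e1, ← hc]
  congr 1
  have e2 : {h : G | IsConj z h ∧ z * h = h * z} =
      (fun x : ConjCls z => x.val) '' {x : ConjCls z | z • x = x} := by
    ext h
    constructor
    · rintro ⟨h1, h2⟩
      refine ⟨⟨h, h1⟩, ?_, rfl⟩
      show z • (ConjCls.mk h h1 : ConjCls z) = ConjCls.mk h h1
      apply ConjCls.ext'
      show z * h * z⁻¹ = h
      rw [h2, mul_inv_cancel_right]
    · rintro ⟨x, hx, rfl⟩
      refine ⟨x.prop, ?_⟩
      have hx' : z • x = x := hx
      have h3 : z * x.val * z⁻¹ = x.val := by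
        rw [← ConjCls.smul_val, hx']
      show z * x.val = x.val * z
      calc z * x.val = z * x.val * z⁻¹ * z := by group
        _ = x.val * z := by rw [h3]
  rw [e2, Set.ncard_image_of_injective _ (fun a b hab => ConjCls.ext' hab)]

end Cfsg.Agent.Lib.Helper52.A7
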